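import Cfsg.Agent.H668.Five.Rows
import Cfsg.Agent.H825.Cov.Main

/-!
# S4874: the alternating groups of degree at least `8`
-/

set_option autoImplicit false
set_option linter.unusedSectionVars false

open Cfsg

namespace Cfsg.Agent.H486.FiveAlt

open Cfsg.Agent.H668.Five Equiv

theorem nn_of {G : Type*} [Group G] [Finite G] (x a b h : G) (ha : a * a = 1) (hb : b * b = 1) (hab : a * b = b * a)
    (hax : a * x = x * a) (hbx : b * x = x * b) (hhx : h * x = x * h) (h3 : h * h * h = 1) (h1 : h * a = b * h)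
    (h2 : h * b = a * b * h) (hne : a ≠ b) : NN x := by
  have mem : ∀ g : G, g * x = x * g → g ∈ Subgroup.centralizer ({x} : Set G) := fun g hg =>
    Subgroup.mem_centralizer_singleton_iff.2 hg
  let X := Subgroup.centralizer ({x} : Set G)
  let a' : X := ⟨a, mem a hax⟩
  let b' : X := ⟨b, mem b hbx⟩
  let h' : X := ⟨h, mem h hhx⟩
  have ha' : a' * a' = 1 := Subtype.ext ha
  have hb' : b' * b' = 1 := Subtype.ext hb
  have hab' : a' * b' = b' * a' := Subtype.ext hab
  let Q : Subgroup X :=
    { carrier := {g | g = 1 ∨ g = a' ∨ g = b' ∨ g = a' * b'}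
      mul_mem' := by
        have e1 : a' * (a' * b') = b' := by rw [← mul_assoc, ha', one_mul]
        have e2 : b' * (a' * b') = a' := by rw [hab', ← mul_assoc, hb', one_mul]
        have e3 : a' * b' * a' = b' := by rw [mul_assoc, ← hab', e1]
        have e4 : a' * b' * b' = a' := by rw [mul_assoc, hb', mul_one]
        have e5 : a' * b' * (a' * b') = 1 := by rw [← mul_assoc, e3, hb']
        rintro g k (rfl | rfl | rfl | rfl) (rfl | rfl | rfl | rfl) <;>
          simp [e1, e2, e3, e4, e5, ha', hb', hab'.symm]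
      one_mem' := Or.inl rfl
      inv_mem' := by
        have e6 : (a')⁻¹ = a' := inv_eq_of_mul_eq_one_right ha'
        have e7 : (b')⁻¹ = b' := inv_eq_of_mul_eq_one_right hb'
        rintro g (rfl | rfl | rfl | rfl)
        · exact Or.inl inv_one
        · exact Or.inr (Or.inl e6)
        · exact Or.inr (Or.inr (Or.inl e7))
        · refine Or.inr (Or.inr (Or.inr ?_))
          rw [mul_inv_rev, e6, e7, hab'] }
  have hQ : ∀ g : X, g ∈ Q ↔ (g = 1 ∨ g = a' ∨ g = b' ∨ g = a' * b') := fun g => Iff.rfl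
  refine not_compl_of_act Q ?_ h' ?_ ?_ (a := a') (Or.inr (Or.inl rfl)) ?_
  · rintro ⟨g, hg⟩
    refine ⟨1, Subtype.ext ?_⟩
    change g ^ 2 ^ 1 = 1
    rw [pow_one, pow_two]
    have e3 : a' * b' * (a' * b') = 1 := by
      rw [mul_assoc, ← mul_assoc b', ← hab', mul_assoc, hb', mul_one, ha']
    rcases (hQ g).1 hg with rfl | rfl | rfl | rfl
    · exact one_mul 1
    · exact ha'
    · exact hb'
    · exact e3
  · have h4 : h' ^ 3 = 1 := by
      rw [pow_succ, pow_two]
      exact Subtype.ext h3
    exact Odd.of_dvd_nat (by decide : Odd 3) (orderOf_dvd_of_pow_eq_one h4)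
  · have e1 : h' * a' * h'⁻¹ = b' := by
      rw [mul_inv_eq_iff_eq_mul]
      exact Subtype.ext h1
    have e2 : h' * b' * h'⁻¹ = a' * b' := by
      rw [mul_inv_eq_iff_eq_mul]
      exact Subtype.ext h2
    intro g hg
    rcases (hQ g).1 hg with rfl | rfl | rfl | rfl
    · rw [mul_one, mul_inv_cancel]
      exact one_mem _
    · rw [e1]
      exact Or.inr (Or.inr (Or.inl rfl))
    · rw [e2]
      exact Or.inr (Or.inr (Or.inr rfl))
    · have e3 : h' * (a' * b') * h'⁻¹ = (h' * a' * h'⁻¹) * (h' * b' * h'⁻¹) := by group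
      rw [e3, e1, e2, hab', ← mul_assoc, hb', one_mul]
      exact Or.inr (Or.inl rfl)
  · intro h5
    apply hne
    have h6 : h * a = a * h := congrArg Subtype.val h5
    rw [h1] at h6
    exact (mul_right_cancel h6).symm

/-- the centralizer in the alternating group -/
theorem card_cent {n : ℕ} (g : alternatingGroup (Fin n)) (s : Perm (Fin n)) (hs : Perm.sign s = -1)
    (hsg : s * g = g * s) :
    Nat.card (Subgroup.centralizer ({g} : Set (alternatingGroup (Fin n)))) * 2
      = Nat.card (Subgroup.centralizer ({(g : Perm (Fin n))} : Set (Perm (Fin n)))) := by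
  set H := Subgroup.centralizer ({(g : Perm (Fin n))} : Set (Perm (Fin n))) with hH
  let φ : H →* ℤˣ := Perm.sign.comp H.subtype
  have hsH : s ∈ H := Subgroup.mem_centralizer_singleton_iff.2 hsg
  have hsurj : Function.Surjective φ := by
    intro u
    rcases Int.units_eq_one_or u with rfl | rfl
    · exact ⟨1, map_one φ⟩
    · exact ⟨⟨s, hsH⟩, hs⟩
  have h1 := Subgroup.card_mul_index φ.ker
  rw [Subgroup.index_ker, MonoidHom.range_eq_top.2 hsurj, Subgroup.card_top] at h1
  rw [← h1]
  have h2 : Nat.card ℤˣ = 2 := by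
    rw [Nat.card_eq_fintype_card]
    rfl
  rw [h2]
  congr 1
  refine Nat.card_congr ?_
  exact
    { toFun := fun x => ⟨⟨(x : alternatingGroup (Fin n)), Subgroup.mem_centralizer_singleton_iff.2
        (congrArg Subtype.val (Subgroup.mem_centralizer_singleton_iff.1 x.2))⟩, x.1.2⟩
      invFun := fun x => ⟨⟨(x : H), x.2⟩, Subgroup.mem_centralizer_singleton_iff.2
        (Subtype.ext (Subgroup.mem_centralizer_singleton_iff.1 (x : H).2))⟩
      left_inv := fun x => rfl
      right_inv := fun x => rfl }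

theorem card_cent_of_equiv {S : Type*} [Group S] (e : S ≃* S) {x y : S} (h : e x = y) :
    Nat.card (Subgroup.centralizer ({x} : Set S)) = Nat.card (Subgroup.centralizer ({y} : Set S)) := by
  refine Nat.card_congr (Equiv.subtypeEquiv e.toEquiv fun a => ?_)
  rw [Subgroup.mem_centralizer_singleton_iff, Subgroup.mem_centralizer_singleton_iff, ← h]
  change _ ↔ e a * e x = e x * e a
  rw [← map_mul, ← map_mul, e.injective.eq_iff]

/-- degree at least ten -/
theorem good {n : ℕ} (hn : 10 ≤ n) : Good (alternatingGroup (Fin n)) := by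
  obtain ⟨φ₁, φ₂, h1, h2, h3, -⟩ := Cfsg.Agent.H825.Cov.exists_emb (k := 6) (l := 4) hn
  left
  let v : alternatingGroup (Fin 6) := ⟨swap 0 1 * swap 1 2 * swap 2 3 * swap 4 5, Perm.mem_alternatingGroup.2 (by decide)⟩
  have hv : orderOf v = 2 ^ (1 + 1) := orderOf_eq_prime_pow (by decide) (by decide)
  let a : alternatingGroup (Fin 4) := ⟨swap 0 1 * swap 2 3, Perm.mem_alternatingGroup.2 (by decide)⟩
  let b : alternatingGroup (Fin 4) := ⟨swap 0 2 * swap 1 3, Perm.mem_alternatingGroup.2 (by decide)⟩
  let h : alternatingGroup (Fin 4) := ⟨swap 1 2 * swap 2 3, Perm.mem_alternatingGroup.2 (by decide)⟩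
  refine ⟨φ₁ v, by rw [orderOf_injective φ₁ h1, hv]; norm_num, nn_of (φ₁ v) (φ₂ a) (φ₂ b) (φ₂ h) ?_ ?_ ?_
    (h3 _ _).symm (h3 _ _).symm (h3 _ _).symm ?_ ?_ ?_ ?_⟩
  · rw [← map_mul, show a * a = 1 by decide, map_one]
  · rw [← map_mul, show b * b = 1 by decide, map_one]
  · rw [← map_mul, ← map_mul, show a * b = b * a by decide]
  · rw [← map_mul, ← map_mul, show h * h * h = 1 by decide, map_one]
  · rw [← map_mul, ← map_mul, show h * a = b * h by decide]
  · rw [← map_mul, ← map_mul, ← map_mul, show h * b = a * b * h by decide]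
  · intro h4
    exact absurd (h2 h4) (by decide)

theorem cycleType_x {n : ℕ} {i j k l : Fin n} (hij : i ≠ j) (hkl : k ≠ l) (hd : Perm.Disjoint (swap i j) (swap k l)) :
    (swap i j * swap k l).cycleType = {2, 2} := by
  rw [hd.cycleType_mul, (Perm.isCycle_swap hij).cycleType, (Perm.isCycle_swap hkl).cycleType,
    Perm.card_support_swap hij, Perm.card_support_swap hkl]
  rfl

theorem card_x {n : ℕ} {g : Perm (Fin n)} (hg : g.cycleType = {2, 2}) :
    Nat.card (Subgroup.centralizer ({g} : Set (Perm (Fin n)))) = (n - 4).factorial * 8 := by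
  rw [Perm.nat_card_centralizer, hg, Fintype.card_fin]
  have h1 : (({2, 2} : Multiset ℕ)).sum = 4 := rfl
  have h2 : (({2, 2} : Multiset ℕ)).prod = 4 := rfl
  have h3 : ∏ k ∈ ({2, 2} : Multiset ℕ).toFinset, (({2, 2} : Multiset ℕ).count k).factorial = 2 := by decide
  rw [h1, h2, h3]
  ring

theorem card_y {n : ℕ} {g : Perm (Fin n)} (hg : g.cycleType = {2, 2, 2, 2}) :
    Nat.card (Subgroup.centralizer ({g} : Set (Perm (Fin n)))) = (n - 8).factorial * 384 := by
  rw [Perm.nat_card_centralizer, hg, Fintype.card_fin]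
  have h1 : (({2, 2, 2, 2} : Multiset ℕ)).sum = 8 := rfl
  have h2 : (({2, 2, 2, 2} : Multiset ℕ)).prod = 16 := rfl
  have h3 : ∏ k ∈ ({2, 2, 2, 2} : Multiset ℕ).toFinset, (({2, 2, 2, 2} : Multiset ℕ).count k).factorial = 24 := by
    decide
  rw [h1, h2, h3]
  ring

theorem good3_eight : Good3 (alternatingGroup (Fin 8)) := by
  let x : alternatingGroup (Fin 8) := ⟨swap 0 1 * swap 2 3, Perm.mem_alternatingGroup.2 (by decide)⟩
  let y : alternatingGroup (Fin 8) := ⟨swap 0 1 * swap 2 3 * (swap 4 5 * swap 6 7),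
    Perm.mem_alternatingGroup.2 (by decide)⟩
  let v : alternatingGroup (Fin 8) := ⟨swap 0 1 * swap 1 2 * swap 2 3 * swap 4 5,
    Perm.mem_alternatingGroup.2 (by decide)⟩
  let a : alternatingGroup (Fin 8) := ⟨swap 4 5 * swap 6 7, Perm.mem_alternatingGroup.2 (by decide)⟩
  let b : alternatingGroup (Fin 8) := ⟨swap 4 6 * swap 5 7, Perm.mem_alternatingGroup.2 (by decide)⟩
  let h : alternatingGroup (Fin 8) := ⟨swap 5 6 * swap 6 7, Perm.mem_alternatingGroup.2 (by decide)⟩
  have d1 : Perm.Disjoint (swap (0 : Fin 8) 1) (swap 2 3) := by unfold Perm.Disjoint; decide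
  have d2 : Perm.Disjoint (swap (4 : Fin 8) 5) (swap 6 7) := by unfold Perm.Disjoint; decide
  have d3 : Perm.Disjoint (swap (0 : Fin 8) 1 * swap 2 3) (swap 4 5 * swap 6 7) := by unfold Perm.Disjoint; decide
  have cx : (x : Perm (Fin 8)).cycleType = {2, 2} := cycleType_x (by decide) (by decide) d1
  have cy : (y : Perm (Fin 8)).cycleType = {2, 2, 2, 2} := by
    change (swap (0 : Fin 8) 1 * swap 2 3 * (swap 4 5 * swap 6 7)).cycleType = _
    rw [d3.cycleType_mul, cycleType_x (by decide) (by decide) d1, cycleType_x (by decide) (by decide) d2]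
    rfl
  have hxy : Nat.card (Subgroup.centralizer ({x} : Set (alternatingGroup (Fin 8))))
      ≠ Nat.card (Subgroup.centralizer ({y} : Set (alternatingGroup (Fin 8)))) := by
    have h2 := card_cent x (swap 0 1) (by decide) (by decide)
    have h3 := card_cent y (swap 0 1) (by decide) (by decide)
    rw [card_x cx] at h2
    rw [card_y cy] at h3
    have h4 : (8 - 4).factorial = 24 := rfl
    have h5 : (8 - 8).factorial = 1 := rfl
    rw [h4] at h2
    rw [h5] at h3
    omega
  refine ⟨x, y, v, orderOf_eq_prime (by decide) (by decide), nn_of x a b h (by decide) (by decide) (by decide)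
    (by decide) (by decide) (by decide) (by decide) (by decide) (by decide) (by decide),
    orderOf_eq_prime (by decide) (by decide), fun e he => hxy (card_cent_of_equiv e he), ?_⟩
  have : orderOf v = 2 ^ (1 + 1) := orderOf_eq_prime_pow (by decide) (by decide)
  rw [this]
  norm_num

theorem good3_nine : Good3 (alternatingGroup (Fin 9)) := by
  let x : alternatingGroup (Fin 9) := ⟨swap 0 1 * swap 2 3, Perm.mem_alternatingGroup.2 (by decide)⟩
  let y : alternatingGroup (Fin 9) := ⟨swap 0 1 * swap 2 3 * (swap 4 5 * swap 6 7),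
    Perm.mem_alternatingGroup.2 (by decide)⟩
  let v : alternatingGroup (Fin 9) := ⟨swap 0 1 * swap 1 2 * swap 2 3 * swap 4 5,
    Perm.mem_alternatingGroup.2 (by decide)⟩
  let a : alternatingGroup (Fin 9) := ⟨swap 4 5 * swap 6 7, Perm.mem_alternatingGroup.2 (by decide)⟩
  let b : alternatingGroup (Fin 9) := ⟨swap 4 6 * swap 5 7, Perm.mem_alternatingGroup.2 (by decide)⟩
  let h : alternatingGroup (Fin 9) := ⟨swap 5 6 * swap 6 7, Perm.mem_alternatingGroup.2 (by decide)⟩
  have d1 : Perm.Disjoint (swap (0 : Fin 9) 1) (swap 2 3) := by unfold Perm.Disjoint; decide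
  have d2 : Perm.Disjoint (swap (4 : Fin 9) 5) (swap 6 7) := by unfold Perm.Disjoint; decide
  have d3 : Perm.Disjoint (swap (0 : Fin 9) 1 * swap 2 3) (swap 4 5 * swap 6 7) := by unfold Perm.Disjoint; decide
  have cx : (x : Perm (Fin 9)).cycleType = {2, 2} := cycleType_x (by decide) (by decide) d1
  have cy : (y : Perm (Fin 9)).cycleType = {2, 2, 2, 2} := by
    change (swap (0 : Fin 9) 1 * swap 2 3 * (swap 4 5 * swap 6 7)).cycleType = _
    rw [d3.cycleType_mul, cycleType_x (by decide) (by decide) d1, cycleType_x (by decide) (by decide) d2]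
    rfl
  have hxy : Nat.card (Subgroup.centralizer ({x} : Set (alternatingGroup (Fin 9))))
      ≠ Nat.card (Subgroup.centralizer ({y} : Set (alternatingGroup (Fin 9)))) := by
    have h2 := card_cent x (swap 0 1) (by decide) (by decide)
    have h3 := card_cent y (swap 0 1) (by decide) (by decide)
    rw [card_x cx] at h2
    rw [card_y cy] at h3
    have h4 : (9 - 4).factorial = 120 := rfl
    have h5 : (9 - 8).factorial = 1 := rfl
    rw [h4] at h2
    rw [h5] at h3
    omega
  refine ⟨x, y, v, orderOf_eq_prime (by decide) (by decide), nn_of x a b h (by decide) (by decide) (by decide)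
    (by decide) (by decide) (by decide) (by decide) (by decide) (by decide) (by decide),
    orderOf_eq_prime (by decide) (by decide), fun e he => hxy (card_cent_of_equiv e he), ?_⟩
  have : orderOf v = 2 ^ (1 + 1) := orderOf_eq_prime_pow (by decide) (by decide)
  rw [this]
  norm_num

/-- **The row.** -/
theorem row_alt (n : ℕ) (hn : 8 ≤ n) : Row (alternatingGroup (Fin n)) := by
  by_cases h10 : 10 ≤ n
  · exact Or.inl (good h10)
  · have h1 : n = 8 ∨ n = 9 := by omega
    rcases h1 with rfl | rfl
    · exact Or.inr (Or.inl good3_eight)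
    · exact Or.inr (Or.inl good3_nine)

end Cfsg.Agent.H486.FiveAlt
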